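import Groth.Agent.Vancyc.H690.InvFun
import Mathlib.RingTheory.FinitePresentation

/-!
# (PRES) The henselization at a rational point of the closed fibre as a quotient of `A{x_1..x_N}`
-/

set_option autoImplicit false

universe u v

namespace Groth.Agent.Vancyc.H15.Pres

open IsLocalRing Groth.Agent.Vancyc.H690.HensFree Groth.Agent.Vancyc.H690.HensPres
  Groth.Agent.Vancyc.H690.InvFun

/-- `A{x, g}/(g) = A{x}`. -/
theorem isHensFree_quotient {A R : Type u} [CommRing A] [CommRing R] [Algebra A R]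
    {ι κ : Type v} {x : ι → R} {g : κ → R} (h : IsHensFree A R (Sum.elim x g)) :
    IsHensFree A (R ⧸ Ideal.span (Set.range g))
      (fun i => Ideal.Quotient.mk (Ideal.span (Set.range g)) (x i)) := by
  have h1 := h.henselian
  have h2 := h.isLocalHom
  have hJm : Ideal.span (Set.range g) ≤ maximalIdeal R := by
    rw [Ideal.span_le]
    rintro _ ⟨j, rfl⟩
    exact h.not_isUnit (Sum.inr j)
  have h5 : HenselianLocalRing (R ⧸ Ideal.span (Set.range g)) := henselianLocalRing_quotient _ hJm
  have h6 : IsLocalHom (Ideal.Quotient.mk (Ideal.span (Set.range g))) :=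
    IsLocalHom.of_surjective _ Ideal.Quotient.mk_surjective
  refine ⟨h5, RingHom.isLocalHom_comp (Ideal.Quotient.mk _) (algebraMap A R), fun i => ?_,
    fun T _ _ _ _ t ht => ?_⟩
  · rw [isUnit_map_iff]
    exact h.not_isUnit (Sum.inl i)
  · have ht' : ∀ i, Sum.elim t (fun _ : κ => (0 : T)) i ∈ maximalIdeal T := by
      rintro (i | j)
      · exact ht i
      · exact Ideal.zero_mem _
    let φ : R →ₐ[A] T := h.lift (Sum.elim t fun _ => 0) ht'
    have hφl : ∀ i, φ (x i) = t i := fun i => h.lift_apply _ ht' (Sum.inl i)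
    have hφr : ∀ j, φ (g j) = 0 := fun j => h.lift_apply _ ht' (Sum.inr j)
    have hle : Ideal.span (Set.range g) ≤ RingHom.ker φ := by
      rw [Ideal.span_le]
      rintro _ ⟨j, rfl⟩
      exact hφr j
    refine ⟨Ideal.Quotient.liftₐ _ φ fun r hr => hle hr, fun i => hφl i, fun ψ hψ => ?_⟩
    have hg0 : ∀ j, Ideal.Quotient.mk (Ideal.span (Set.range g)) (g j) = 0 := fun j =>
      Ideal.Quotient.eq_zero_iff_mem.2 (Ideal.subset_span ⟨j, rfl⟩)
    have h7 : ψ.comp (Ideal.Quotient.mkₐ A _) = φ := by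
      refine h.hom_ext (fun i => ?_) fun i => ?_
      · rcases i with i | j
        · change ψ (Ideal.Quotient.mk _ (x i)) ∈ _
          rw [hψ]
          exact ht i
        · change ψ (Ideal.Quotient.mk _ (g j)) ∈ _
          rw [hg0, map_zero]
          exact Ideal.zero_mem _
      · rcases i with i | j
        · change ψ (Ideal.Quotient.mk _ (x i)) = φ (x i)
          rw [hψ, hφl]
        · change ψ (Ideal.Quotient.mk _ (g j)) = φ (g j)
          rw [hg0, map_zero, hφr]
    ext r
    obtain ⟨r, rfl⟩ := Ideal.Quotient.mk_surjective r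
    exact DFunLike.congr_fun h7 r

section Main

variable {A : Type u} [CommRing A] [IsLocalRing A] {B₀ : Type u} [CommRing B₀] [Algebra A B₀]
  [Algebra.FinitePresentation A B₀]
  (P : Ideal B₀) [P.IsPrime] (hP : (maximalIdeal A).map (algebraMap A B₀) ≤ P)
  (hres : ∀ y : B₀, ∃ c : A, y - algebraMap A B₀ c ∈ P)
  (Bh : Type u) [CommRing Bh] [IsLocalRing Bh] [Algebra (Localization.AtPrime P) Bh]
  [IsLocalHom (algebraMap (Localization.AtPrime P) Bh)]
  [Hensel.IsHenselization (Localization.AtPrime P) Bh]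
  [Algebra A Bh] [IsScalarTower A (Localization.AtPrime P) Bh]

include hP hres in
/-- (PRES) -/
theorem exists_pres {ι : Type} [Finite ι] (x : ι → B₀) (hxP : ∀ i, x i ∈ P)
    (hgen : maximalIdeal Bh ≤ (maximalIdeal A).map (algebraMap A Bh) ⊔
      Ideal.span (Set.range fun i => algebraMap (Localization.AtPrime P) Bh
        (algebraMap B₀ (Localization.AtPrime P) (x i))) ⊔ maximalIdeal Bh ^ 2) :
    ∃ (R : Type u) (_ : CommRing R) (_ : Algebra A R) (X : ι → R) (ρ : R →ₐ[A] Bh),
      IsHensFree A R X ∧ Function.Surjective ρ ∧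
      (∀ i, ρ (X i) = algebraMap (Localization.AtPrime P) Bh
        (algebraMap B₀ (Localization.AtPrime P) (x i))) ∧ (RingHom.ker ρ).FG := by
  classical
  obtain ⟨n, f, hf, -⟩ := (inferInstance : Algebra.FinitePresentation A B₀).out
  choose c hc using fun i => hres (f (MvPolynomial.X i))
  let y : Fin n → B₀ := fun i => f (MvPolynomial.X i) - algebraMap A B₀ (c i)
  let w : ι ⊕ Fin n → B₀ := Sum.elim x y
  have hw : Function.Surjective (MvPolynomial.aeval (R := A) w) := by
    intro b
    obtain ⟨p, rfl⟩ := hf b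
    refine ⟨MvPolynomial.aeval (fun i => MvPolynomial.X (Sum.inr i) + MvPolynomial.C (c i)) p, ?_⟩
    rw [← AlgHom.comp_apply]
    congr 1
    ext i
    simp [w, y]
  have hwP : ∀ i, w i ∈ P := by
    rintro (i | j)
    · exact hxP i
    · exact hc j
  have hfg : (RingHom.ker (MvPolynomial.aeval (R := A) w)).FG :=
    Algebra.FinitePresentation.ker_fG_of_surjective _ hw
  have hpres := isHensPres_of_isHenselization (A := A) w hw P hP hwP Bh
  obtain ⟨R', _, _, X', hX'⟩ := exists_isHensFree A (ι ⊕ Fin n)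
  have hX'1 := hX'.henselian
  have hX'2 := hX'.isLocalHom
  obtain ⟨π, hπ, hπX, hπker⟩ := exists_surjective_ker_eq hX' hpres
  have hπfg : (RingHom.ker π).FG := by
    rw [hπker]
    exact hfg.map _
  have hloc : IsLocalHom (π : R' →+* Bh) := IsLocalHom.of_surjective _ hπ
  have hmmap : (maximalIdeal R').map (π : R' →+* Bh) = maximalIdeal Bh := by
    apply le_antisymm
    · exact ((local_hom_TFAE (π : R' →+* Bh)).out 0 2 rfl rfl).mp hloc
    · intro b hb
      obtain ⟨r, rfl⟩ := hπ b
      refine Ideal.mem_map_of_mem (π : R' →+* Bh) ?_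
      intro hr
      exact hb (hr.map π)
  -- the equations
  let 𝔞 : Ideal R' := (maximalIdeal A).map (algebraMap A R') ⊔
    Ideal.span (Set.range fun i => X' (Sum.inl i)) ⊔ maximalIdeal R' ^ 2
  have h𝔞 : 𝔞.map (π : R' →+* Bh) = (maximalIdeal A).map (algebraMap A Bh) ⊔
      Ideal.span (Set.range fun i => algebraMap (Localization.AtPrime P) Bh
        (algebraMap B₀ (Localization.AtPrime P) (x i))) ⊔ maximalIdeal Bh ^ 2 := by
    rw [Ideal.map_sup, Ideal.map_sup, Ideal.map_pow, hmmap, Ideal.map_map, π.comp_algebraMap,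
      Ideal.map_span, ← Set.range_comp]
    have h1 : ((π : R' →+* Bh) ∘ fun i => X' (Sum.inl i)) = fun i =>
        algebraMap (Localization.AtPrime P) Bh (algebraMap B₀ (Localization.AtPrime P) (x i)) :=
      funext fun i => hπX (Sum.inl i)
    rw [h1]
  have hex : ∀ j : Fin n, ∃ e ∈ 𝔞, π e = π (X' (Sum.inr j)) := by
    intro j
    have h1 : π (X' (Sum.inr j)) ∈ 𝔞.map (π : R' →+* Bh) := by
      rw [h𝔞]
      refine hgen ?_
      rw [← hmmap]
      exact Ideal.mem_map_of_mem (π : R' →+* Bh) (hX'.not_isUnit _)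
    obtain ⟨e, he, he'⟩ := (Ideal.mem_map_iff_of_surjective (π : R' →+* Bh) hπ).1 h1
    exact ⟨e, he, he'⟩
  choose e he he' using hex
  let G : Fin n → R' := fun j => X' (Sum.inr j) - e j
  have hG : ∀ j, π (G j) = 0 := fun j => by rw [map_sub, he', sub_self]
  have hGu : ∀ i, ¬ IsUnit (Sum.elim (fun i => X' (Sum.inl i)) G i) := by
    rintro (i | j)
    · exact hX'.not_isUnit _
    · intro hu
      have h1 := hu.map π
      rw [Sum.elim_inr, hG] at h1
      exact not_isUnit_zero h1
  have hle : 𝔞 ≤ spanIdeal A (Sum.elim (fun i => X' (Sum.inl i)) G) := by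
    refine sup_le (sup_le ?_ ?_) le_sup_right
    · exact le_sup_left.trans le_sup_left
    · refine le_trans ?_ (le_sup_right.trans le_sup_left)
      refine Ideal.span_mono ?_
      rintro _ ⟨i, rfl⟩
      exact ⟨Sum.inl i, rfl⟩
  have hspan : ∀ i, X' i ∈ spanIdeal A (Sum.elim (fun i => X' (Sum.inl i)) G) := by
    rintro (i | j)
    · exact hle (Ideal.mem_sup_left (Ideal.mem_sup_right (Ideal.subset_span ⟨i, rfl⟩)))
    · have h1 : X' (Sum.inr j) = G j + e j := by simp [G]
      rw [h1]
      refine Ideal.add_mem _ ?_ (hle (he j))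
      exact Ideal.mem_sup_left (Ideal.mem_sup_right (Ideal.subset_span ⟨Sum.inr j, rfl⟩))
  have hfree := isHensFree_of_generate hX' _ hspan hGu
  have hker : Ideal.span (Set.range G) ≤ RingHom.ker π := by
    rw [Ideal.span_le]
    rintro _ ⟨j, rfl⟩
    exact hG j
  refine ⟨R' ⧸ Ideal.span (Set.range G), inferInstance, inferInstance,
    fun i => Ideal.Quotient.mk _ (X' (Sum.inl i)),
    Ideal.Quotient.liftₐ _ π fun r hr => hker hr, isHensFree_quotient hfree, ?_, ?_, ?_⟩
  · intro b
    obtain ⟨r, rfl⟩ := hπ b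
    exact ⟨Ideal.Quotient.mk _ r, rfl⟩
  · intro i
    exact hπX (Sum.inl i)
  · have h1 : RingHom.ker (Ideal.Quotient.liftₐ (Ideal.span (Set.range G)) π fun r hr => hker hr) =
        (RingHom.ker π).map (Ideal.Quotient.mk (Ideal.span (Set.range G))) :=
      Ideal.ker_quotient_lift (π : R' →+* Bh) hker
    rw [h1]
    exact hπfg.map _

end Main

end Groth.Agent.Vancyc.H15.Pres
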