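import Groth.Agent.Vancyc.H15.ResMain
import Mathlib.RingTheory.Unramified.Field
import Mathlib.FieldTheory.PurelyInseparable.Basic
import Mathlib.RingTheory.EssentialFiniteness
import Mathlib.RingTheory.FinitePresentation

/-!
# (RES): a geometrically non-degenerate quadratic point with purely inseparable residue field is rational
-/

set_option autoImplicit false

universe u

open scoped TensorProduct

namespace Groth.Agent.Vancyc.H15.Res

open ResExt ResTan ResMain IsLocalRing VanCyc

section Field

variable {k O : Type u} [Field k] [CommRing O] [IsLocalRing O] [Algebra k O]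

/-- Field version: `O` local, essentially of finite type over `k`, residue field purely inseparable,
geometrically a non-degenerate quadratic singularity; then the residue field is `k`. -/
theorem surjective_residue [Algebra.EssFiniteType k O] [IsPurelyInseparable k (ResidueField O)]
    {n : ℕ} (hq : ∀ (M : Ideal (AlgebraicClosure k ⊗[k] O)) [M.IsMaximal],
      IsNondegQuadSing (AlgebraicClosure k) (Localization.AtPrime M) n) :
    Function.Surjective (algebraMap k (ResidueField O)) := by
  have halg : Algebra.IsAlgebraic k (ResidueField O) := inferInstance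
  let φ : ResidueField O →ₐ[k] AlgebraicClosure k := IsAlgClosed.lift
  let a1 : Algebra (ResidueField O) (AlgebraicClosure k) := φ.toRingHom.toAlgebra
  have a2 : IsScalarTower k (ResidueField O) (AlgebraicClosure k) :=
    IsScalarTower.of_algebraMap_eq' φ.comp_algebraMap.symm
  have hN : IsNoetherianRing (AlgebraicClosure k ⊗[k] O) :=
    Algebra.EssFiniteType.isNoetherianRing (AlgebraicClosure k) _
  let M : Ideal (AlgebraicClosure k ⊗[k] O) :=
    RingHom.ker (ev (eps k (ResidueField O) (AlgebraicClosure k) O))
  have hL : IsNoetherianRing (Localization.AtPrime M) := inferInstance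
  have hess : Algebra.EssFiniteType k (ResidueField O) :=
    Algebra.EssFiniteType.of_surjective (IsScalarTower.toAlgHom k O (ResidueField O))
      IsLocalRing.residue_surjective
  have hD : ∀ D : Derivation k (ResidueField O) (ResidueField O), D = 0 := fun D =>
    derivation_eq_zero (K := AlgebraicClosure k) (O := O) (L := Localization.AtPrime M)
      IsLocalRing.residue_surjective (hq M) D
  have hΩ : Subsingleton (Ω[ResidueField O⁄k]) := by
    refine subsingleton_of_forall_eq 0 fun x => ?_
    refine (Module.forall_dual_apply_eq_zero_iff (ResidueField O) x).1 fun f => ?_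
    have h1 := hD (f.compDer (KaehlerDifferential.D k (ResidueField O)))
    have h2 : f = 0 := by
      apply (KaehlerDifferential.linearMapEquivDerivation k (ResidueField O)).injective
      rw [map_zero]
      exact h1
    rw [h2]; rfl
  have hu : Algebra.FormallyUnramified k (ResidueField O) := ⟨hΩ⟩
  have hs : Algebra.IsSeparable k (ResidueField O) := Algebra.FormallyUnramified.isSeparable _ _
  exact IsPurelyInseparable.surjective_algebraMap_of_isSeparable k _

end Field

section Rel

variable {A : Type u} [CommRing A] [IsLocalRing A] {B₀ : Type u} [CommRing B₀] [Algebra A B₀]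

/-- (RES) in the situation of S4008. -/
theorem exists_sub_mem [Algebra.FiniteType A B₀]
    (P : Ideal B₀) [P.IsMaximal] (hP : (maximalIdeal A).map (algebraMap A B₀) ≤ P)
    (hPi : ∀ y : B₀, ∃ (e : ℕ) (c : A),
      y ^ ringExpChar (ResidueField A) ^ e - algebraMap A B₀ c ∈ P) (n : ℕ)
    (hq : VanCyc.IsNondegQuadPt (VanCyc.fibHom A (Localization.AtPrime P)) n) (y : B₀) :
    ∃ c : A, y - algebraMap A B₀ c ∈ P := by
  have hle : (maximalIdeal A).map (algebraMap A (Localization.AtPrime P)) ≤
      maximalIdeal (Localization.AtPrime P) := by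
    rw [IsScalarTower.algebraMap_eq A B₀ (Localization.AtPrime P), ← Ideal.map_map,
      ← Localization.AtPrime.map_eq_maximalIdeal]
    exact Ideal.map_mono hP
  have hnt : Nontrivial (fibQuot A (Localization.AtPrime P)) :=
    Ideal.Quotient.nontrivial_iff.2 fun h => (maximalIdeal.isMaximal _).ne_top (top_le_iff.1 (h ▸ hle))
  have hloc : IsLocalRing (fibQuot A (Localization.AtPrime P)) :=
    IsLocalRing.of_surjective' (Ideal.Quotient.mk _) Ideal.Quotient.mk_surjective
  let a0 : Algebra (ResidueField A) (fibQuot A (Localization.AtPrime P)) :=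
    (fibHom A (Localization.AtPrime P)).toAlgebra
  have hfib : ∀ c : A, algebraMap (ResidueField A) (fibQuot A (Localization.AtPrime P))
      (residue A c) = Ideal.Quotient.mk _ (algebraMap A (Localization.AtPrime P) c) := fun c => rfl
  have tw : IsScalarTower A (ResidueField A) (fibQuot A (Localization.AtPrime P)) :=
    IsScalarTower.of_algebraMap_eq fun c => rfl
  have hess1 : Algebra.EssFiniteType A (Localization.AtPrime P) :=
    Algebra.EssFiniteType.comp A B₀ _
  have hess2 : Algebra.EssFiniteType A (fibQuot A (Localization.AtPrime P)) := inferInstance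
  have hess3 : Algebra.EssFiniteType (ResidueField A) (fibQuot A (Localization.AtPrime P)) :=
    Algebra.EssFiniteType.of_comp A _ _
  -- the composite `B₀ → κ`
  let r : B₀ →+* ResidueField (fibQuot A (Localization.AtPrime P)) :=
    (residue _).comp ((Ideal.Quotient.mk _).comp (algebraMap B₀ (Localization.AtPrime P)))
  have hr : ∀ c : A, r (algebraMap A B₀ c) =
      algebraMap (ResidueField A) (ResidueField (fibQuot A (Localization.AtPrime P)))
        (residue A c) := by
    intro c
    rw [IsScalarTower.algebraMap_apply (ResidueField A) (fibQuot A (Localization.AtPrime P))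
      (ResidueField (fibQuot A (Localization.AtPrime P))), hfib]
    change residue _ (Ideal.Quotient.mk _ (algebraMap B₀ (Localization.AtPrime P) _)) = _
    rw [← IsScalarTower.algebraMap_apply]
    rfl
  have hrker : RingHom.ker r = P := by
    have h1 : (RingHom.ker r).IsPrime := RingHom.ker_isPrime r
    refine (Ideal.IsMaximal.eq_of_le inferInstance h1.ne_top ?_).symm
    intro b hb
    rw [RingHom.mem_ker]
    have h2 : algebraMap B₀ (Localization.AtPrime P) b ∈ maximalIdeal (Localization.AtPrime P) := by
      rw [← Localization.AtPrime.map_eq_maximalIdeal]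
      exact Ideal.mem_map_of_mem _ hb
    change residue _ (Ideal.Quotient.mk _ _) = 0
    rw [residue_eq_zero_iff]
    have h3 : IsLocalHom (Ideal.Quotient.mk
        ((maximalIdeal A).map (algebraMap A (Localization.AtPrime P)))) :=
      IsLocalHom.of_surjective _ Ideal.Quotient.mk_surjective
    exact map_nonunit _ _ h2
  have hrsurj : Function.Surjective r := by
    intro x
    obtain ⟨x, rfl⟩ := residue_surjective x
    obtain ⟨x, rfl⟩ := Ideal.Quotient.mk_surjective x
    obtain ⟨b, s, rfl⟩ := IsLocalization.exists_mk'_eq P.primeCompl x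
    -- invert `s` modulo `P`
    obtain ⟨t, ht⟩ : ∃ t : B₀, s * t - 1 ∈ P := by
      have h1 : Ideal.span {(s : B₀)} ⊔ P = ⊤ := by
        refine (inferInstance : P.IsMaximal).1.2 _ (lt_of_le_of_ne le_sup_right fun h => s.2 ?_)
        have h6 : (s : B₀) ∈ Ideal.span {(s : B₀)} ⊔ P := Ideal.mem_sup_left (Ideal.subset_span rfl)
        have h7 : (s : B₀) ∈ P := by rw [← h] at h6; exact h6
        exact h7
      have h2 : (1 : B₀) ∈ Ideal.span {(s : B₀)} ⊔ P := h1 ▸ Submodule.mem_top
      obtain ⟨u, hu, v, hv, huv⟩ := Submodule.mem_sup.1 h2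
      obtain ⟨t, rfl⟩ := Ideal.mem_span_singleton'.1 hu
      exact ⟨t, by rw [← huv, mul_comm]; simpa using P.neg_mem hv⟩
    refine ⟨b * t, ?_⟩
    have h4 : r (s * t) = 1 := by
      rw [← sub_eq_zero, ← map_one r, ← map_sub, ← RingHom.mem_ker, hrker]
      exact ht
    have h5 : r b = residue _ (Ideal.Quotient.mk _ (IsLocalization.mk' (Localization.AtPrime P) b s))
        * r s := by
      change residue _ (Ideal.Quotient.mk _ (algebraMap B₀ (Localization.AtPrime P) b)) =
        _ * residue _ (Ideal.Quotient.mk _ (algebraMap B₀ (Localization.AtPrime P) s))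
      rw [← map_mul, ← map_mul, IsLocalization.mk'_spec]
    rw [map_mul, h5, mul_assoc, ← map_mul, h4, mul_one]
  have hexp : ExpChar (ResidueField A) (ringExpChar (ResidueField A)) := inferInstance
  have hpi : IsPurelyInseparable (ResidueField A)
      (ResidueField (fibQuot A (Localization.AtPrime P))) := by
    rw [isPurelyInseparable_iff_pow_mem _ (ringExpChar (ResidueField A))]
    intro x
    obtain ⟨b, rfl⟩ := hrsurj x
    obtain ⟨e, c, hc⟩ := hPi b
    refine ⟨e, residue A c, ?_⟩
    rw [← hr, ← map_pow, eq_comm, ← sub_eq_zero, ← map_sub, ← RingHom.mem_ker, hrker]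
    exact hc
  have hmain := surjective_residue (k := ResidueField A)
    (O := fibQuot A (Localization.AtPrime P)) (n := n) hq
  obtain ⟨c, hc⟩ := hmain (r y)
  obtain ⟨c, rfl⟩ := residue_surjective c
  refine ⟨c, ?_⟩
  rw [← hrker, RingHom.mem_ker, map_sub, hr, hc, sub_self]

end Rel

end Groth.Agent.Vancyc.H15.Res
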