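import Groth.Agent.Vancyc.H15.ResTan
import Groth.Agent.Vancyc.H15.ResCoef
import Groth.Agent.Vancyc.H689.TruncPS
import Mathlib.LinearAlgebra.Matrix.NonsingularInverse

/-!
# Residue field of a geometrically non-degenerate quadratic point: vanishing of derivations
-/

set_option autoImplicit false

universe u

open scoped TensorProduct

namespace Groth.Agent.Vancyc.H15.ResMain

open ResExt ResTan ResCoef IsLocalRing VanCyc Matrix
open Groth.Agent.Vancyc.H689

variable {k κ K O : Type u} [Field k] [Field κ] [Field K] [CommRing O] [Algebra k κ] [Algebra κ K]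
  [Algebra k K] [IsScalarTower k κ K] [Algebra k O] [Algebra O κ] [IsScalarTower k O κ]

variable (K) in
/-- The second order family attached to `D : κ → κ` and `v : O → κ`. -/
noncomputable def psi (D : Derivation k κ κ) (v : Derivation k O κ) : O →ₐ[k] T K where
  toFun a := TrivSqZeroExt.inl (dhom K D (algebraMap O κ a)) + TrivSqZeroExt.inr (dhom K D (v a))
  map_one' := by simp
  map_zero' := by simp
  map_add' a b := by
    apply TrivSqZeroExt.ext <;>
      simp only [map_add, TrivSqZeroExt.fst_add, TrivSqZeroExt.snd_add, TrivSqZeroExt.fst_inl,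
        TrivSqZeroExt.fst_inr, TrivSqZeroExt.snd_inl, TrivSqZeroExt.snd_inr, zero_add, add_zero]
  map_mul' a b := by
    apply TrivSqZeroExt.ext
    · simp
    · simp only [Derivation.leibniz, Algebra.smul_def, map_add, map_mul, TrivSqZeroExt.snd_add,
        TrivSqZeroExt.snd_inl, TrivSqZeroExt.snd_inr, TrivSqZeroExt.snd_mul, TrivSqZeroExt.fst_add,
        TrivSqZeroExt.fst_inl, TrivSqZeroExt.fst_inr, zero_add, add_zero,
        MulOpposite.smul_eq_mul_unop, MulOpposite.unop_op, smul_eq_mul]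
      ring
  commutes' c := by
    rw [Derivation.map_algebraMap, map_zero, TrivSqZeroExt.inr_zero, add_zero,
      ← IsScalarTower.algebraMap_apply k O κ, AlgHom.commutes]
    rfl

theorem psi_apply (D : Derivation k κ κ) (v : Derivation k O κ) (a : O) : psi K D v a =
    TrivSqZeroExt.inl (dhom K D (algebraMap O κ a)) + TrivSqZeroExt.inr (dhom K D (v a)) := rfl

theorem fst_psi (D : Derivation k κ κ) (v : Derivation k O κ) (a : O) :
    (psi K D v a).fst = dhom K (D.compAlgebraMap O) a := by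
  rw [psi_apply, TrivSqZeroExt.fst_add, TrivSqZeroExt.fst_inl, TrivSqZeroExt.fst_inr, add_zero]
  rfl

theorem snd_psi (D : Derivation k κ κ) (v : Derivation k O κ) (a : O) :
    (psi K D v a).snd = dhom K D (v a) := by
  rw [psi_apply, TrivSqZeroExt.snd_add, TrivSqZeroExt.snd_inl, TrivSqZeroExt.snd_inr, zero_add]

variable (K) in
/-- `t ↦ 0`. -/
noncomputable def rho : T K →ₐ[K] DualNumber K where
  toFun x := TrivSqZeroExt.inl x.fst.fst + TrivSqZeroExt.inr x.snd.fst
  map_one' := by simp
  map_zero' := by simp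
  map_add' a b := by
    apply TrivSqZeroExt.ext <;> simp
  map_mul' a b := by
    apply TrivSqZeroExt.ext
    · simp
    · simp
  commutes' c := by
    rw [IsScalarTower.algebraMap_apply K (DualNumber K) (T K)]
    apply TrivSqZeroExt.ext
    · simp [TrivSqZeroExt.algebraMap_eq_inl]
    · simp [TrivSqZeroExt.algebraMap_eq_inl]

theorem rho_apply (x : T K) :
    rho K x = TrivSqZeroExt.inl x.fst.fst + TrivSqZeroExt.inr x.snd.fst := rfl

theorem snd_rho (x : T K) : (rho K x).snd = x.snd.fst := by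
  rw [rho_apply]; simp

theorem rho_psi (D : Derivation k κ κ) (v : Derivation k O κ) (a : O) :
    rho K (psi K D v a) = dhom K v a := by
  rw [rho_apply, fst_psi, snd_psi, fst_dhom, fst_dhom, dhom_apply]
  rfl

variable (K) in
/-- The reduction `T K → K`. -/
noncomputable def pr : T K →ₐ[K] K :=
  (TrivSqZeroExt.fstHom K K K).comp ((TrivSqZeroExt.fstHom (DualNumber K) (DualNumber K)
      (DualNumber K)).restrictScalars K)

theorem pr_apply (x : T K) : pr K x = x.fst.fst := rfl

section Main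

variable {L : Type u} [CommRing L] [Algebra K L] [Algebra (K ⊗[k] O) L]
  [IsScalarTower K (K ⊗[k] O) L] [IsLocalization.AtPrime L (RingHom.ker (ev (eps k κ K O)))]
  [IsLocalRing L]

/-- Second order obstruction. -/
theorem dotProduct_eq_zero {N : ℕ} (f : MvPowerSeries (Fin N) K) (hf : NoLowTerms f)
    (τ : MvPowerSeries (Fin N) K →ₐ[K] L ⧸ (maximalIdeal L) ^ 3)
    (hkτ : RingHom.ker τ = Ideal.span {f} ⊔ PSPow.M K N ^ 3)
    (ξ : Fin N → L) (hξ : ∀ i, Ideal.Quotient.mk _ (ξ i) = τ (MvPowerSeries.X i))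
    (hξm : ∀ i, ξ i ∈ maximalIdeal L)
    (D : Derivation k κ κ) (v : Derivation k O κ)
    (W : L →ₐ[K] DualNumber K) (hW : ∀ a, W (inc k K L a) = dhom K (D.compAlgebraMap O) a)
    (H : L →ₐ[K] DualNumber K) (hH : ∀ a, H (inc k K L a) = dhom K v a) :
    (polarMatrix (quadPart f)).mulVec (fun i => (W (ξ i)).snd) ⬝ᵥ (fun i => (H (ξ i)).snd) = 0 := by
  obtain ⟨Ψ, hΨ⟩ := exists_ext (eps k κ K O) L (S := T K)
    (pr K) (fun x hx => (isUnit_iff x).2 hx) (psi K D v) (fun a => by
      rw [pr_apply, fst_psi, fst_dhom])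
  have hΨfst : ∀ y, (Ψ y).fst = W y := by
    intro y
    have h1 : ((TrivSqZeroExt.fstHom (DualNumber K) (DualNumber K)
      (DualNumber K)).restrictScalars K).comp Ψ = W :=
      hom_ext (eps k κ K O) _ _ fun a => by
        rw [hW, AlgHom.comp_apply, hΨ]
        exact fst_psi _ _ a
    exact DFunLike.congr_fun h1 y
  have hΨrho : ∀ y, rho K (Ψ y) = H y := by
    intro y
    have h1 : (rho K).comp Ψ = H :=
      hom_ext (eps k κ K O) _ _ fun a => by
        rw [hH, AlgHom.comp_apply, hΨ]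
        exact rho_psi _ _ a
    exact DFunLike.congr_fun h1 y
  -- the maximal ideal goes to the nilpotent ideal
  have hmem : ∀ y ∈ maximalIdeal L, (Ψ y).fst.fst = 0 := by
    intro y hy
    have h2 := ker_evL ((pr K).comp Ψ)
    rw [← h2, RingHom.mem_ker] at hy
    exact hy
  have hcube : ∀ y ∈ maximalIdeal L ^ 3, Ψ y = 0 := by
    have h3 : maximalIdeal L ^ 3 ≤ RingHom.ker Ψ := by
      rw [pow_succ, pow_two, Ideal.mul_le]
      intro r hr s hs
      refine Submodule.mul_induction_on hr (fun a ha b hb => ?_) fun a b ha hb => ?_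
      · rw [RingHom.mem_ker, map_mul, map_mul]
        exact mul_mul_eq_zero _ _ _ (hmem a ha) (hmem b hb) (hmem s hs)
      · rw [add_mul]; exact Ideal.add_mem _ ha hb
    intro y hy
    exact h3 hy
  let Ψb : L ⧸ (maximalIdeal L) ^ 3 →ₐ[K] T K := Ideal.Quotient.liftₐ _ Ψ hcube
  have hΨb : ∀ y, Ψb (Ideal.Quotient.mk _ y) = Ψ y := fun y => rfl
  let Θ : MvPowerSeries (Fin N) K →ₐ[K] T K := Ψb.comp τ
  have hΘker : ∀ g ∈ Ideal.span {f} ⊔ PSPow.M K N ^ 3, Θ g = 0 := by
    intro g hg
    rw [← hkτ, RingHom.mem_ker] at hg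
    change Ψb (τ g) = 0
    rw [hg, map_zero]
  have hΘX : ∀ i, Θ (MvPowerSeries.X i) = Ψ (ξ i) := fun i => by
    change Ψb (τ _) = _
    rw [← hξ, hΨb]
  have hΘp : ∀ p : MvPolynomial (Fin N) K, Θ (p : MvPowerSeries (Fin N) K) =
      MvPolynomial.aeval (fun i => Ψ (ξ i)) p := by
    intro p
    have h1 : Θ.comp (MvPolynomial.coeToMvPowerSeries.algHom K) =
        MvPolynomial.aeval (fun i => Ψ (ξ i)) := by
      apply MvPolynomial.algHom_ext
      intro i
      simp [hΘX]
    have h2 := DFunLike.congr_fun h1 p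
    have h3 : MvPolynomial.coeToMvPowerSeries.algHom K p = (p : MvPowerSeries (Fin N) K) := by
      rw [MvPolynomial.coeToMvPowerSeries.algHom_apply]
      ext d
      simp
    rw [← h2]
    change _ = Θ (MvPolynomial.coeToMvPowerSeries.algHom K p)
    rw [h3]
  have h1 : Θ f = 0 := hΘker f (Ideal.mem_sup_left (Ideal.subset_span rfl))
  have h2 := hΘker _ (Ideal.mem_sup_right (PSPow.sub_quadPart_mem hf))
  rw [map_sub, h1, zero_sub, neg_eq_zero, hΘp] at h2
  have h2' : quadEval (fun i j => algebraMap K (T K) (quadPart f i j)) (fun i => Ψ (ξ i)) = 0 :=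
    (PSPow.aeval_quadPoly _ _).symm.trans h2
  have h3 := snd_snd_quadEval (quadPart f) (fun i => Ψ (ξ i)) (fun i => hmem _ (hξm i))
  rw [h2'] at h3
  have h4 : ∀ i, (H (ξ i)).snd = (Ψ (ξ i)).snd.fst := fun i => by rw [← hΨrho, snd_rho]
  simp only [h4, ← hΨfst]
  exact h3.symm

/-- If `L` is a non-degenerate quadratic singularity, then `κ` has no non-zero `k`-derivations into
itself. -/
theorem derivation_eq_zero [IsNoetherianRing L] (hπ : Function.Surjective (algebraMap O κ)) {n : ℕ}
    (hq : IsNondegQuadSing K L n) (D : Derivation k κ κ) : D = 0 := by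
  obtain ⟨f, hf, ⟨e'⟩⟩ := hq
  obtain ⟨τ, hτ, hkτ⟩ := TruncPS.hasTrunc_of_completion f e' 3
  have hmk : Function.Surjective (Ideal.Quotient.mk ((maximalIdeal L) ^ 3)) :=
    Ideal.Quotient.mk_surjective
  choose ξ hξ using fun i => hmk (τ (MvPowerSeries.X i))
  obtain ⟨e, he⟩ := exists_evL (eps k κ K O) L
  have hker := ker_evL e
  have hmem : ∀ y : L, y ∈ maximalIdeal L ↔ e y = 0 := fun y => by rw [← hker, RingHom.mem_ker]
  have hcube : ∀ y ∈ maximalIdeal L ^ 3, e y = 0 := fun y hy =>
    (hmem y).1 (Ideal.pow_le_self three_ne_zero hy)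
  let eb : L ⧸ (maximalIdeal L) ^ 3 →ₐ[K] K := Ideal.Quotient.liftₐ _ e hcube
  have heb : ∀ y, eb (Ideal.Quotient.mk _ y) = e y := fun y => rfl
  have hkeb : RingHom.ker (eb.comp τ) = PSPow.M K (n + 1) := by
    rw [← PSPow.maximalIdeal_eq]
    exact IsLocalRing.eq_maximalIdeal (RingHom.ker_isMaximal_of_surjective (eb.comp τ)
      fun c => ⟨algebraMap K _ c, by simp⟩)
  have hτmem : ∀ g y, Ideal.Quotient.mk _ y = τ g → (y ∈ maximalIdeal L ↔ g ∈ PSPow.M K (n + 1)) := by
    intro g y h
    rw [hmem, ← hkeb, RingHom.mem_ker, AlgHom.comp_apply, ← h, heb]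
  have hξm : ∀ i, ξ i ∈ maximalIdeal L := fun i =>
    (hτmem _ _ (hξ i)).2 (Ideal.subset_span ⟨i, rfl⟩)
  obtain ⟨W, hW⟩ := exists_ext (eps k κ K O) L (S := DualNumber K) (TrivSqZeroExt.fstHom K K K)
    (fun x hx => TrivSqZeroExt.isUnit_iff_isUnit_fst.2 (isUnit_iff_ne_zero.2 hx))
    (dhom K (D.compAlgebraMap O)) (fun a => fst_dhom _ a)
  have hWfst : ∀ y, (W y).fst = e y := by
    intro y
    have h1 : (TrivSqZeroExt.fstHom K K K).comp W = e :=
      hom_ext (eps k κ K O) _ _ fun a => by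
        rw [he, AlgHom.comp_apply, hW]
        exact fst_dhom _ a
    exact DFunLike.congr_fun h1 y
  set c : Fin (n + 1) → K := (polarMatrix (quadPart f)).mulVec (fun i => (W (ξ i)).snd) with hc
  -- the element `∑ c i ξ i`
  let g : MvPowerSeries (Fin (n + 1)) K := ∑ i, c i • MvPowerSeries.X i
  let z : L := ∑ i, c i • ξ i
  have hgz : Ideal.Quotient.mk _ z = τ g := by
    have h1 : Ideal.Quotient.mk ((maximalIdeal L) ^ 3) z = Ideal.Quotient.mkₐ K _ z := rfl
    rw [h1, map_sum, map_sum]
    refine Finset.sum_congr rfl fun i _ => ?_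
    rw [map_smul, map_smul, ← hξ]
    rfl
  have hz2 : z ∈ maximalIdeal L ^ 2 := by
    refine mem_sq_of_forall (k := k) (κ := κ) (K := K) (O := O) z
      (sum_mem fun i _ => Submodule.smul_of_tower_mem _ _ (hξm i)) fun v H hH => ?_
    have h1 := dotProduct_eq_zero f hf.1 τ hkτ ξ hξ hξm D v W hW H hH
    rw [← h1, ← hc]
    simp only [z, map_sum, map_smul, dotProduct]
    have h2 : ∀ (s : Finset (Fin (n + 1))) (y : Fin (n + 1) → DualNumber K),
        (∑ i ∈ s, y i).snd = ∑ i ∈ s, (y i).snd := by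
      intro s y
      classical
      induction s using Finset.induction_on with
      | empty => simp
      | insert a s ha ih => rw [Finset.sum_insert ha, Finset.sum_insert ha, TrivSqZeroExt.snd_add, ih]
    rw [h2]
    refine Finset.sum_congr rfl fun i _ => ?_
    rw [TrivSqZeroExt.snd_smul, smul_eq_mul]
  have hg2 : g ∈ PSPow.M K (n + 1) ^ 2 := by
    have h1 : (maximalIdeal L ^ 2).map (Ideal.Quotient.mk ((maximalIdeal L) ^ 3)) =
        (PSPow.M K (n + 1) ^ 2).map τ.toRingHom := by
      rw [Ideal.map_pow, Ideal.map_pow]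
      congr 1
      apply le_antisymm
      · rw [Ideal.map_le_iff_le_comap]
        intro y hy
        obtain ⟨g', hg'⟩ := hτ (Ideal.Quotient.mk _ y)
        rw [Ideal.mem_comap, ← hg']
        exact Ideal.mem_map_of_mem τ.toRingHom ((hτmem _ _ hg'.symm).1 hy)
      · rw [Ideal.map_le_iff_le_comap]
        intro g' hg'
        obtain ⟨y, hy⟩ := hmk (τ g')
        rw [Ideal.mem_comap]
        change τ g' ∈ _
        rw [← hy]
        exact Ideal.mem_map_of_mem _ ((hτmem _ _ hy).2 hg')
    have h2 : τ.toRingHom g ∈ (PSPow.M K (n + 1) ^ 2).map τ.toRingHom := by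
      rw [← h1]
      change τ g ∈ _
      rw [← hgz]
      exact Ideal.mem_map_of_mem _ hz2
    rw [← Ideal.mem_comap, Ideal.comap_map_of_surjective' τ.toRingHom hτ] at h2
    refine (sup_le le_rfl ?_ : _ ≤ PSPow.M K (n + 1) ^ 2) h2
    change RingHom.ker τ ≤ _
    rw [hkτ]
    refine sup_le ?_ (Ideal.pow_le_pow_right (by norm_num))
    rw [Ideal.span_le, Set.singleton_subset_iff]
    exact PSPow.mem_sq_of_noLowTerms hf.1
  have hc0 : c = 0 := by
    funext i
    have h1 := (PSPow.mem_pow_iff 2 g).1 hg2 (Finsupp.single i 1) (by simp [Finsupp.degree_single])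
    rw [map_sum] at h1
    simp only [map_smul, smul_eq_mul] at h1
    rw [Finset.sum_eq_single i, MvPowerSeries.coeff_X, if_pos rfl, mul_one] at h1
    · exact h1
    · intro j _ hj
      rw [MvPowerSeries.coeff_X, if_neg, mul_zero]
      intro h
      exact hj ((Finsupp.single_left_injective one_ne_zero h).symm)
    · intro h; exact absurd (Finset.mem_univ _) h
  have hw0 : ∀ i, (W (ξ i)).snd = 0 := by
    have h1 : (fun i => (W (ξ i)).snd) = 0 := by
      refine Matrix.eq_zero_of_mulVec_eq_zero (M := polarMatrix (quadPart f)) ?_ (hc ▸ hc0)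
      exact IsUnit.ne_zero hf.2
    exact fun i => congrFun h1 i
  -- `W` is trivial on `m`
  have hW2 : ∀ y ∈ maximalIdeal L ^ 2, (W y).snd = 0 := by
    intro y hy
    rw [pow_two] at hy
    refine Submodule.mul_induction_on hy (fun a ha b hb => ?_) fun a b ha hb => ?_
    · rw [map_mul, TrivSqZeroExt.snd_mul, hWfst, hWfst, (hmem a).1 ha, (hmem b).1 hb]
      simp
    · rw [map_add, TrivSqZeroExt.snd_add, ha, hb, add_zero]
  have hW1 : ∀ y ∈ maximalIdeal L, (W y).snd = 0 := by
    intro y hy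
    obtain ⟨g', hg'⟩ := hτ (Ideal.Quotient.mk _ y)
    have h1 := (hτmem _ _ hg'.symm).1 hy
    obtain ⟨u, hu⟩ := Ideal.mem_span_range_iff_exists_fun.1 h1
    choose u' hu' using fun i => hmk (τ (u i))
    have h2 : y - ∑ i, u' i * ξ i ∈ maximalIdeal L ^ 3 := by
      rw [← Ideal.Quotient.eq_zero_iff_mem, map_sub, ← hg', ← hu, map_sum, map_sum, sub_eq_zero]
      refine Finset.sum_congr rfl fun i _ => ?_
      rw [map_mul, map_mul, hu', hξ]
    have h3 := hW2 _ (Ideal.pow_le_pow_right (by norm_num) h2)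
    have h4 : (W (∑ i, u' i * ξ i)).snd = 0 := by
      rw [map_sum]
      have h5 : ∀ (s : Finset (Fin (n + 1))), (∑ i ∈ s, W (u' i * ξ i)).snd = 0 := by
        intro s
        classical
        induction s using Finset.induction_on with
        | empty => simp
        | insert a s ha ih =>
          rw [Finset.sum_insert ha, TrivSqZeroExt.snd_add, ih, map_mul, TrivSqZeroExt.snd_mul, hw0,
            hWfst (ξ a), (hmem _).1 (hξm a)]
          simp
      exact h5 _
    rw [map_sub, TrivSqZeroExt.snd_sub, h4, sub_zero] at h3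
    exact h3
  have hWall : ∀ y : L, (W y).snd = 0 := by
    intro y
    have h1 := hW1 (y - algebraMap K L (e y)) (by rw [hmem]; simp)
    rw [map_sub, TrivSqZeroExt.snd_sub, AlgHom.commutes] at h1
    simpa [TrivSqZeroExt.algebraMap_eq_inl'] using h1
  ext x
  obtain ⟨a, rfl⟩ := hπ x
  have h1 := hWall (inc k K L a)
  rw [hW, snd_dhom] at h1
  exact (map_eq_zero _).1 h1

end Main

end Groth.Agent.Vancyc.H15.ResMain
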